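import Mathlib
import Cfsg.Agent.Lib.NatSyl.Perm
import Cfsg.Agent.Lib.Push.SL2Facts
import Cfsg.Agent.Lib.InvChar.AutElem

/-! Overgroups of `SL₂(q)` on its natural module in which a Sylow `p`-subgroup normalizes it. -/

set_option autoImplicit false
set_option linter.unusedSectionVars false

open Subgroup CfsgLib.LAE CfsgLib.SL2 CfsgLib.Push
open scoped MatrixGroups

namespace CfsgLib.NatSyl

variable {F : Type*} [Field F]

theorem end_scalar (f : (Fin 2 → F) →+ (Fin 2 → F)) (hf : ∀ l w, f (act l w) = act l (f w)) :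
    ∃ a : F, ∀ w, f w = a • w := by
  have h1 : ∀ b w, f ![b * w 1, 0] = ![b * f w 1, 0] := fun b w => by
    have := hf (uu b) w
    rwa [act_uu, act_uu, map_add, add_right_inj] at this
  have h2 : ∀ b w, f ![0, b * w 0] = ![0, b * f w 0] := fun b w => by
    have := hf (ll b) w
    rwa [act_ll, act_ll, map_add, add_right_inj] at this
  have h3 : ∀ b, f ![b, 0] = ![b * f ![0, 1] 1, 0] := fun b => by simpa using h1 b ![0, 1]
  have h4 : ∀ b, f ![0, b] = ![0, b * f ![0, 1] 1] := fun b => by simpa [h3] using h2 b ![1, 0]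
  refine ⟨f ![0, 1] 1, fun w => ?_⟩
  have : w = ![w 0, 0] + ![0, w 1] := vec2_ext (by simp) (by simp)
  rw [this, map_add, h3, h4 (w 1)]
  exact vec2_ext (by simp [mul_comm]) (by simp [mul_comm])

theorem aut_eq {σ τ : F →+* F} (h1 : ∀ c, τ (σ c - c) = σ c - c) (h2 : ∀ c, τ (τ c - c) = τ c - c)
    {c d : F} (hc : τ c ≠ c) (hd : σ d ≠ d) : (2 : F) = 0 ∧ ∀ x, σ x = τ x := by
  have key : ∀ {σ : F →+* F}, (∀ c, τ (σ c - c) = σ c - c) → ∀ x y,
      (σ x - x) * (τ y - y) + (τ x - x) * (σ y - y) = 0 := fun {σ} h x y => by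
    have a1 := h (x * y)
    have a2 := h x
    have a3 := h y
    simp only [map_sub, map_mul] at a1 a2 a3
    rw [sub_eq_iff_eq_add] at a2 a3
    rw [a2, a3] at a1
    linear_combination a1
  have c0 := sub_ne_zero.2 hc
  have t2 : (2 : F) = 0 := by
    have := key h2 c c
    exact (mul_eq_zero.1 (show 2 * ((τ c - c) * (τ c - c)) = 0 by linear_combination this)).resolve_right
      (mul_ne_zero c0 c0)
  have e1 : σ c - c = τ c - c := by
    have a1 := key h1 c (c * c)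
    have a2 := key h1 c d
    simp only [map_mul] at a1
    have a3 : (σ c - c) * (τ c - c) * ((σ c - c) - (τ c - c)) = 0 := by
      linear_combination a1 + (-(σ c - c) * (τ c - c) * (τ c) - (σ c - c) * (τ c - c) * c) * t2
    refine sub_eq_zero.1 ((mul_eq_zero.1 a3).resolve_left (mul_ne_zero (fun e => ?_) c0))
    rw [e, zero_mul, zero_add] at a2
    exact mul_ne_zero c0 (sub_ne_zero.2 hd) a2
  refine ⟨t2, fun x => ?_⟩
  have a1 := key h1 c x
  rw [e1, ← mul_add] at a1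
  linear_combination (mul_eq_zero.1 a1).resolve_left c0 + (x - τ x) * t2

variable {G : Type*} [Group G] [DistribMulAction G (Fin 2 → F)]

/-- The standing hypothesis. -/
structure Su (p : ℕ) (ι : SL(2, F) →* G) (S : Subgroup G) : Prop where
  faith : ∀ g : G, (∀ w : Fin 2 → F, g • w = w) → g = 1
  hι : ∀ l w, ι l • w = act l w
  syl : IsSylowIn p S ⊤
  norm : S ≤ normalizer (ι.range : Set G)
  T_le : ∀ b, ι (uu b) ∈ S

/-- The conjugates of the line `Z`. -/
def Zs (F : Type*) [Field F] [DistribMulAction G (Fin 2 → F)] (g : G) : Set (Fin 2 → F) :=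
  {w | (g⁻¹ • w) 1 = 0}

theorem mem_Zs {g : G} {w : Fin 2 → F} : w ∈ Zs F g ↔ (g⁻¹ • w) 1 = 0 := Iff.rfl

theorem mem_Zs_one {w : Fin 2 → F} : w ∈ Zs F (1 : G) ↔ w 1 = 0 := by rw [mem_Zs, inv_one, one_smul]

theorem mem_Zs_mul {g h : G} {w : Fin 2 → F} : w ∈ Zs F (g * h) ↔ g⁻¹ • w ∈ Zs F h := by
  rw [mem_Zs, mem_Zs, mul_inv_rev, mul_smul]

theorem Zs_mul (g h : G) : Zs F (g * h) = (fun w => g • w) '' Zs F h := by
  ext w
  rw [mem_Zs_mul]
  exact ⟨fun e => ⟨_, e, smul_inv_smul g w⟩, fun ⟨v, hv, e⟩ => by rwa [← e, inv_smul_smul]⟩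

theorem Zs_congr (g : G) {h k : G} (e : Zs F h = Zs F k) : Zs F (g * h) = Zs F (g * k) := by
  rw [Zs_mul, Zs_mul, e]

/-- The stabilizer of `Z`. -/
def NZ (F : Type*) [Field F] (G : Type*) [Group G] [DistribMulAction G (Fin 2 → F)] :
    Subgroup G where
  carrier := {g | Zs F g = Zs F (1 : G)}
  one_mem' := rfl
  mul_mem' := fun {a b} ha hb => by
    have := Zs_congr a hb
    rw [mul_one] at this
    exact this.trans ha
  inv_mem' := fun {a} ha => by
    have := Zs_congr a⁻¹ ha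
    rw [mul_one, inv_mul_cancel] at this
    exact this.symm

theorem NZ_smul {g : G} (hg : g ∈ NZ F G) {w : Fin 2 → F} (hw : w 1 = 0) : (g • w) 1 = 0 := by
  have : w ∈ Zs F g⁻¹ := (inv_mem hg : Zs F g⁻¹ = _) ▸ mem_Zs_one.2 hw
  rwa [mem_Zs, inv_inv] at this

/-- The elements centralizing `Z` and `W / Z`. -/
def XZ (F : Type*) [Field F] (G : Type*) [Group G] [DistribMulAction G (Fin 2 → F)] :
    Subgroup G where
  carrier := {g | (∀ w : Fin 2 → F, (g • w) 1 = w 1) ∧ ∀ w : Fin 2 → F, w 1 = 0 → g • w = w}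
  one_mem' := by simp
  mul_mem' := fun {a b} ha hb => ⟨fun w => by rw [mul_smul, ha.1, hb.1],
    fun w hw => by rw [mul_smul, hb.2 w hw, ha.2 w hw]⟩
  inv_mem' := fun {a} ha => ⟨fun w => by rw [← ha.1 (a⁻¹ • w), smul_inv_smul],
    fun w hw => by rw [inv_smul_eq_iff, ha.2 w hw]⟩

namespace Su

variable [Fintype F] [Finite G] {p : ℕ} [Fact p.Prime] [CharP F p] {ι : SL(2, F) →* G}
  {S : Subgroup G} (h : Su p ι S)
include h

theorem inj : Function.Injective ι := (injective_iff_map_eq_one ι).2 fun l e =>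
  SL2_ext_act fun w => by rw [← h.hι, e, one_smul, act_one]

theorem semi {s : G} (hs : s ∈ normalizer (ι.range : Set G)) :
    ∃ σ : F →+* F, ∀ (c : F) (w : Fin 2 → F), s • (c • w) = σ c • s • w := by
  have key : ∀ c : F, ∃ a : F, ∀ w : Fin 2 → F, s • (c • w) = a • s • w := fun c => by
    obtain ⟨a, ha⟩ := end_scalar (AddMonoidHom.mk' (fun w : Fin 2 → F => s • (c • s⁻¹ • w))
      fun v w => by simp only [smul_add]) fun l w => by
        obtain ⟨l', e⟩ := conj_inv_mem_of_mem_normalizer hs ⟨l, rfl⟩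
        have e1 : ∀ v : Fin 2 → F, s • act l' v = act l (s • v) := fun v => by
          rw [← h.hι, ← h.hι, e, mul_smul, mul_smul, smul_inv_smul]
        show s • (c • s⁻¹ • act l w) = act l (s • (c • s⁻¹ • w))
        rw [← e1, act_smul, ← h.hι l', e, mul_smul, mul_smul, smul_inv_smul, h.hι]
    exact ⟨a, fun w => by simpa using ha (s • w)⟩
  choose σ hσ using key
  have w0 : s • (![1, 0] : Fin 2 → F) ≠ 0 := by simp [smul_eq_zero_iff_eq]
  have inj := smul_left_injective F w0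
  exact ⟨RingHom.mk' ⟨⟨σ, inj (by simp only [← hσ, one_smul])⟩, fun a b => inj (by
    simp only [mul_smul, ← hσ])⟩ fun a b => inj (by
      simp only [MonoidHom.coe_mk, OneHom.coe_mk, add_smul, ← hσ, smul_add]), hσ⟩

theorem S_le : S ≤ NZ F G := by
  have h1 : S.comap ι = upU F := isSylowIn_upU.eq_of_le _
    (h.syl.isPGroup.comap_of_injective ι h.inj) (by rintro _ ⟨b, rfl⟩; exact h.T_le b) le_top
  have key : ∀ s ∈ S, ∀ w : Fin 2 → F, w 1 = 0 → (s • w) 1 = 0 := fun s hs w hw => by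
    obtain ⟨l, e⟩ := conj_inv_mem_of_mem_normalizer (h.norm hs) ⟨uu 1, rfl⟩
    have h2 : l ∈ upU F := h1 ▸ mem_comap.2 (e ▸ mul_mem (mul_mem (inv_mem hs) (h.T_le 1)) hs)
    have h3 := act_eq_of_mem_upU h2 (mem_line0.2 hw)
    rw [← h.hι, e, mul_smul, mul_smul, inv_smul_eq_iff, h.hι] at h3
    exact (act_uu_eq_iff one_ne_zero).1 h3
  exact fun s hs => Set.ext fun w => ⟨fun e => mem_Zs_one.2 (smul_inv_smul s w ▸ key s hs _ e),
    fun e => key _ (inv_mem hs) w (mem_Zs_one.1 e)⟩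

theorem uu_XZ (b : F) : ι (uu b) ∈ XZ F G :=
  ⟨fun w => by rw [h.hι, act_uu]; simp, fun w hw => by
    rw [h.hι]; exact act_eq_of_mem_upU (uu_mem b) (mem_line0.2 hw)⟩

omit h in
theorem XZ_conj {n g : G} (hn : n ∈ NZ F G) (hg : g ∈ XZ F G) : n * g * n⁻¹ ∈ XZ F G := by
  refine ⟨fun w => ?_, fun w hw => by
    rw [mul_smul, mul_smul, hg.2 _ (NZ_smul (inv_mem hn) hw), smul_inv_smul]⟩
  have := NZ_smul hn (w := g • n⁻¹ • w - n⁻¹ • w) (by rw [Pi.sub_apply, hg.1, sub_self])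
  rwa [smul_sub, smul_inv_smul, Pi.sub_apply, sub_eq_zero, ← mul_smul, ← mul_smul] at this

theorem XZ_le : XZ F G ≤ ι.range := fun g hg => by
  have h1 : IsPGroup p (XZ F G) := isPGroup_iff_forall_mem.2 fun x hx => ⟨1, h.faith _ fun w => by
    have : ∀ n : ℕ, x ^ n • w = w + (n : F) • (x • w - w) := fun n => by
      induction n with
      | zero => simp
      | succ n ih =>
        rw [pow_succ', mul_smul, ih, smul_add, hx.2 ((n : F) • _) (by simp [hx.1]), Nat.cast_succ,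
          add_smul, one_smul]
        abel
    rw [pow_one, this, CharP.cast_eq_zero, zero_smul, add_zero]⟩
  have h2 := h.syl.le_of_le_normalizer h1 le_top (fun s hs => mem_normalizer_of_conjS_le
    (conjS_le_iff_forall.2 fun x hx => XZ_conj (h.S_le hs) hx)) hg
  obtain ⟨σ, hσ⟩ := h.semi (h.norm h2)
  have h3 : ∀ c, σ c = c := fun c => by
    have := hσ c ![1, 0]
    rw [hg.2 _ (by simp), hg.2 _ (by simp)] at this
    simpa using (congrFun this 0).symm
  refine ⟨uu ((g • (![0, 1] : Fin 2 → F)) 0), (inv_mul_eq_one.1 (h.faith _ fun w => ?_)).symm⟩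
  rw [mul_smul, inv_smul_eq_iff, h.hι, act_uu]
  have : w = ![w 0, 0] + w 1 • ![0, 1] := vec2_ext (by simp) (by simp)
  conv_rhs => rw [this, smul_add, hg.2 _ (by simp), hσ, h3]
  exact vec2_ext (by simp [mul_comm]) (by simp [hg.1])

theorem normal_of_spread (hs : ∀ g : G, ∀ w ∈ Zs F g, w ≠ 0 → w 1 = 0 → g ∈ NZ F G) :
    ι.range.Normal := by
  have h1 : ∀ g b, g * ι (uu b) * g⁻¹ ∈ ι.range := fun g b => by
    obtain ⟨l, e⟩ := exists_act_eq (v := (![1, 0] : Fin 2 → F)) (w := g • ![1, 0]) (by simp)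
      (by simp [smul_eq_zero_iff_eq])
    have h2 := hs ((ι l)⁻¹ * g) ![1, 0] (by
      rw [mem_Zs, mul_inv_rev, inv_inv, mul_smul, h.hι, e, inv_smul_smul]; simp) (by simp) (by simp)
    have h3 := ι.range.mul_mem (ι.range.mul_mem ⟨l, rfl⟩ (h.XZ_le (XZ_conj h2 (h.uu_XZ b))))
      (ι.range.inv_mem ⟨l, rfl⟩)
    convert h3 using 1
    group
  refine ⟨?_⟩
  rintro _ ⟨l, rfl⟩ g
  have : (⊤ : Subgroup SL(2, F)) ≤ (ι.range.comap (MulAut.conj g).toMonoidHom).comap ι := by
    rw [← upU_sup_loU]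
    refine sup_le ?_ ?_
    · rintro _ ⟨b, rfl⟩
      exact h1 g b
    · rintro _ ⟨b, rfl⟩
      have := h1 (g * ι ww) (-b)
      rw [show g * ι ww * ι (uu (-b)) * (g * ι ww)⁻¹ = g * ι (ww * uu (-b) * ww⁻¹) * g⁻¹ by
        simp only [map_mul, map_inv]; group, ww_conj_uu, neg_neg] at this
      exact this
  exact this (mem_top l)

theorem card_four {g : G} (hg : g ∉ NZ F G) {w : Fin 2 → F} (hw : w ∈ Zs F g) (w0 : w ≠ 0)
    (w1 : w 1 = 0) : Fintype.card F = 4 ∧ (2 : F) = 0 := by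
  classical
  obtain ⟨g0, hg0, hmax⟩ := Set.exists_max_image {g | g ∉ NZ F G}
    (fun g => (Zs F g ∩ Zs F (1 : G)).ncard) (Set.toFinite _) ⟨g, hg⟩
  have hT : IsPGroup p ((upU F).map ι) := isPGroup_upU.map ι
  obtain ⟨n, hn, hP⟩ := (h.syl.mono h.S_le le_top).exists_conj_le
    ((isPGroup_conjS hT g0).to_inf_left (K := NZ F G)) inf_le_right
  have hk : n * g0 ∉ NZ F G := fun e => hg0 ((mul_mem_cancel_left hn).1 e)
  have hc : (Zs F (n * g0) ∩ Zs F (1 : G)).ncard = (Zs F g0 ∩ Zs F (1 : G)).ncard := by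
    have e : Zs F (1 : G) = Zs F (n * 1) := by rw [mul_one]; exact (hn : Zs F n = _).symm
    conv_lhs => rw [e, Zs_mul, Zs_mul, ← Set.image_inter (MulAction.injective n),
      Set.ncard_image_of_injective _ (MulAction.injective n)]
  rw [conjS_inf, ← conjS_mul, conjS_eq_of_mem hn] at hP
  simp only [← hc] at hmax
  generalize n * g0 = k at hk hP hmax
  have hsub : ∀ {a b : Fin 2 → F}, a ∈ Zs F k → b ∈ Zs F k → a - b ∈ Zs F k := fun ha hb => by
    rw [mem_Zs] at *
    rw [smul_sub, Pi.sub_apply, ha, hb, sub_self]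
  obtain ⟨u, hu, u0⟩ : ∃ u ∈ Zs F k ∩ Zs F (1 : G), u ≠ 0 := by
    by_contra hn
    push Not at hn
    have h1 := (Set.ncard_le_one (Set.toFinite _)).2 fun a ha b hb => (hn a ha).trans (hn b hb).symm
    exact w0 ((Set.ncard_le_one (Set.toFinite _)).1 ((hmax g hg).trans h1) w ⟨hw, mem_Zs_one.2 w1⟩ 0
      ⟨by simp [mem_Zs], by simp [mem_Zs]⟩)
  obtain ⟨v, hv, hv'⟩ : ∃ v ∈ Zs F (1 : G), v ∉ Zs F k := by
    by_contra hn
    refine hk (Set.eq_of_subset_of_ncard_le (fun v hv => by_contra fun e => hn ⟨v, hv, e⟩) ?_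
      (Set.toFinite _)).symm
    rw [← mul_one k, Zs_mul, Set.ncard_image_of_injective _ (MulAction.injective k)]
  have u1 := mem_Zs_one.1 hu.2
  have u00 : u 0 ≠ 0 := fun e => u0 (vec2_ext e u1)
  obtain ⟨c, rfl⟩ : ∃ c : F, v = c • u :=
    ⟨v 0 / u 0, vec2_ext (by simp [u00]) (by simp [u1, mem_Zs_one.1 hv])⟩
  have inj := smul_left_injective F u0
  -- the automorphisms
  have key : ∀ x ∈ Zs F k ∩ Zs F (1 : G), x ≠ 0 → ∃ σ : F →+* F, (σ c - c) • u = x ∧
      (∀ d, (σ d - d) • u ∈ Zs F k) ∧ ∀ d, σ d = d ↔ d • u ∈ Zs F k := fun x hx x0 => by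
    obtain ⟨b, hb⟩ : ∃ b, b = (k⁻¹ • x) 0 / (k⁻¹ • c • u) 1 := ⟨_, rfl⟩
    have a1 : ∀ y : Fin 2 → F, (k * ι (uu b) * k⁻¹) • y = y + k • ![b * (k⁻¹ • y) 1, 0] := fun y => by
      rw [mul_smul, mul_smul, h.hι, act_uu, smul_add, smul_inv_smul]
    have a2 : (k * ι (uu b) * k⁻¹) • c • u = c • u + x := by
      rw [a1, add_right_inj, ← eq_inv_smul_iff, hb, div_mul_cancel₀ _ hv']
      exact vec2_ext rfl (by simpa using hx.1.symm)
    have b0 : b ≠ 0 := fun e => x0 (by
      have := a1 (c • u)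
      rw [a2, e, add_right_inj] at this
      rw [this, smul_eq_zero_iff_eq]
      simp)
    have a3 : ∀ y : Fin 2 → F, (k * ι (uu b) * k⁻¹) • y = y ↔ y ∈ Zs F k := fun y => by
      rw [a1, add_eq_left, smul_eq_zero_iff_eq, mem_Zs]
      simp [b0]
    have a4 : ∀ y : Fin 2 → F, (k * ι (uu b) * k⁻¹) • y - y ∈ Zs F k := fun y => by
      rw [a1, add_sub_cancel_left, mem_Zs, inv_smul_smul]; simp
    have a5 : k * ι (uu b) * k⁻¹ ∈ conjS k ((upU F).map ι) :=
      conj_mem_conjS.2 (mem_map_of_mem ι (uu_mem b))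
    generalize k * ι (uu b) * k⁻¹ = t at a2 a3 a4 a5
    have a6 : t ∈ NZ F G := by
      by_contra ht
      have h1 : insert (c • u + x) (Zs F k ∩ Zs F (1 : G)) ⊆ Zs F t ∩ Zs F (1 : G) := by
        rintro y (rfl | hy)
        · exact ⟨by rw [← a2, mem_Zs, inv_smul_smul]; exact mem_Zs_one.1 hv, by
            rw [mem_Zs_one, Pi.add_apply, mem_Zs_one.1 hv, mem_Zs_one.1 hx.2, add_zero]⟩
        · exact ⟨by rw [mem_Zs, inv_smul_eq_iff.2 ((a3 y).2 hy.1).symm]; exact mem_Zs_one.1 hy.2,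
            hy.2⟩
      have h2 := (Set.ncard_le_ncard h1 (Set.toFinite _)).trans (hmax t ht)
      rw [Set.ncard_insert_of_notMem (fun e => hv' (by simpa using hsub e.1 hx.1))] at h2
      omega
    obtain ⟨σ, hσ⟩ := h.semi (h.norm (hP ⟨a5, a6⟩))
    have a7 : ∀ d : F, t • d • u = σ d • u := fun d => by rw [hσ, (a3 u).2 hu.1]
    exact ⟨σ, by rw [sub_smul, ← a7, a2, add_sub_cancel_left], fun d => by
      rw [sub_smul, ← a7]; exact a4 _, fun d => by rw [← a3, a7, inj.eq_iff]⟩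
  obtain ⟨τ, t1, t2, t3⟩ := key u hu u0
  have tc : τ c ≠ c := fun e => hv' ((t3 c).1 e)
  have t4 := fun d => (t3 _).2 (t2 d)
  have h1 : ∀ d : F, d • u ∈ Zs F k → d = 0 ∨ d = 1 := fun d hd => or_iff_not_imp_left.2 fun d0 => by
    obtain ⟨σ, s1, s2, s3⟩ := key (d • u) ⟨hd, mem_Zs_one.2 (by simp [u1])⟩ (smul_ne_zero d0 u0)
    rw [(aut_eq (fun d => (t3 _).2 (s2 d)) t4 tc fun e => hv' ((s3 c).1 e)).2 c, t1] at s1
    exact inj (s1.symm.trans (one_smul F u).symm)
  have t5 : τ c - c = 1 := inj (t1.trans (one_smul F u).symm)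
  have c0 : c ≠ 0 := fun e => tc (by rw [e, map_zero])
  have c1 : c ≠ 1 := fun e => tc (by rw [e, map_one])
  have two := (aut_eq t4 t4 tc tc).1
  refine ⟨?_, two⟩
  have h2 : (Finset.univ : Finset F) = {0, 1, c, c + 1} := by
    ext d
    simp only [Finset.mem_univ, Finset.mem_insert, Finset.mem_singleton, true_iff]
    rcases h1 _ (t2 d) with e | e
    · rcases h1 d ((t3 d).1 (sub_eq_zero.1 e)) with e | e <;> simp [e]
    · rcases h1 (d - c) ((t3 _).1 (by rw [map_sub]; linear_combination e - t5)) with e | e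
      · exact Or.inr (Or.inr (Or.inl (sub_eq_zero.1 e)))
      · exact Or.inr (Or.inr (Or.inr (by linear_combination e)))
  rw [← Finset.card_univ, h2, Finset.card_eq_four]
  exact ⟨0, 1, c, c + 1, zero_ne_one, c0.symm, fun e => c1 (by linear_combination -two - e),
    c1.symm, fun e => c0 (by linear_combination -e), fun e => by simp at e, rfl⟩

theorem main : ι.range.Normal ∨
    (Fintype.card F = 4 ∧ Nonempty (G ≃* alternatingGroup (Fin 7))) := by
  classical
  by_cases hs : ∀ g : G, ∀ w ∈ Zs F g, w ≠ 0 → w 1 = 0 → g ∈ NZ F G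
  · exact Or.inl (h.normal_of_spread hs)
  push Not at hs
  obtain ⟨g, w, hw, w0, w1, hg⟩ := hs
  obtain ⟨h4, h2⟩ := h.card_four hg hw w0 w1
  obtain rfl : p = 2 := (Nat.prime_dvd_prime_iff_eq Fact.out Nat.prime_two).1
    ((CharP.cast_eq_zero_iff F p 2).1 (by exact_mod_cast h2))
  let := ZMod.algebra F 2
  obtain ⟨f, hf⟩ := InvChar.exists_addAut_hom_GL (W := Fin 2 → F) (p := 2) (n := 4) (by
    rw [Nat.card_fun, Nat.card_eq_fintype_card, h4]; simp)
  obtain ⟨e⟩ := InvChar.nonempty_GL_four_two_equiv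
  let φ : MulAut (Multiplicative (Fin 2 → F)) →* Equiv.Perm (Fin 8) :=
    (alternatingGroup (Fin 8)).subtype.comp (e.toMonoidHom.comp f)
  have hφ : Function.Injective φ := Subtype.val_injective.comp (e.injective.comp hf)
  let α : G →* MulAut (Multiplicative (Fin 2 → F)) :=
    { toFun := fun g => AddEquiv.toMultiplicative (DistribMulAction.toAddEquiv _ g)
      map_one' := by ext w; simp
      map_mul' := fun a b => by ext w; simp [mul_smul] }
  let β : Fˣ →* MulAut (Multiplicative (Fin 2 → F)) :=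
    { toFun := fun g => AddEquiv.toMultiplicative (DistribMulAction.toAddEquiv _ g)
      map_one' := by ext w; simp
      map_mul' := fun a b => by ext w; simp [mul_smul] }
  have hα : Function.Injective α := (injective_iff_map_eq_one α).2 fun g e => h.faith g fun w =>
    congrArg (fun t : MulAut (Multiplicative (Fin 2 → F)) => (t (Multiplicative.ofAdd w)).toAdd) e
  have hβ : Function.Injective β := (injective_iff_map_eq_one β).2 fun g e => Units.ext (by
    have := congrArg (fun t : MulAut (Multiplicative (Fin 2 → F)) =>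
      (t (Multiplicative.ofAdd ![1, 0])).toAdd 0) e
    simpa [β, Units.smul_def] using this)
  obtain ⟨ω, hω⟩ := exists_prime_orderOf_dvd_card' (G := Fˣ) 3 (by
    rw [Nat.card_eq_fintype_card, Fintype.card_units, h4])
  refine (perm8 (φ.comp α) (hφ.comp hα) (fun g => (e (f (α g))).2) (L := ι.range) ?_ (ω := φ (β ω))
    (by rw [orderOf_injective φ hφ, orderOf_injective β hβ, hω]) ?_ ?_ h.syl h.norm).imp_right
    fun e => ⟨h4, e⟩
  · rw [← Nat.card_congr (MonoidHom.ofInjective h.inj).toEquiv, card_SL2, h4]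
    rfl
  · rintro _ ⟨l, rfl⟩
    refine Commute.map (MulEquiv.ext fun w => ?_) φ
    show ι l • ω • w.toAdd = ω • ι l • w.toAdd
    rw [h.hι, h.hι, Units.smul_def, Units.smul_def, act_smul]
  · refine (MonoidHom.range_eq_map ι).le.trans (map_le_iff_le_comap.2 (upU_sup_loU.ge.trans
      (sup_le (fun l hl => Subgroup.subset_closure ⟨⟨l, rfl⟩, ?_⟩) ?_)))
    · rw [← map_pow, pow_eq_one_of_mem_upU hl, map_one]
    · rintro _ ⟨b, rfl⟩
      refine Subgroup.subset_closure ⟨⟨_, rfl⟩, ?_⟩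
      rw [← map_pow, pow_two, ← ll_add, ← two_mul, h2, zero_mul, ll_zero, map_one]

end Su

end CfsgLib.NatSyl
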